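import Cfsg.Agent.H566.RC.TriFrame
import Cfsg.Agent.H106.RC.Use

/-!
# S3510, triality part of `PΩ₈⁺(q)`, type iii (helper864): the environment

`T3 hG N κ s Ω x₁ x r g`: `x₁` induces the triality automorphism `xt hG (fG s)`, `s` a field automorphism of
order three; the other members `x i` of the cover are the images of commuting elements `g i` of
`AutD (fG s)` (automorphisms in `Ω₈⁺` of the twisted product `dia (fG s)`), of different prime orders `r i ≠ 3`.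
`NoN Ω N`: no cover by a `PF` family of elements of `N` (row `F` without triality).
-/

set_option autoImplicit false
open Cfsg

namespace Cfsg.Agent.H864.RC

open Module QuadraticMap MulAction
open Cfsg.Agent.LieClassical.OrthCore Cfsg.Agent.LieClassical.OrthTrans
open Cfsg.Agent.LieClassical.OrthSimple Cfsg.Agent.ClassicalGeometry.OrthSemi
open Cfsg.Agent.ClassicalGeometry.OrthAut1 Cfsg.Agent.H106.RC Cfsg.Agent.H93.RC Cfsg.Agent.H566.RC
open Cfsg.Agent.LieClassical.QuadForms Cfsg.Agent.ClassicalGeometry.TrialityOct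
open Cfsg.Agent.ClassicalGeometry.Triality Cfsg.Agent.ClassicalGeometry.TrialitySpaces
open Cfsg.Agent.H198.TriBase Cfsg.Agent.H198.TriAut Cfsg.Agent.H206.Balance Cfsg.Agent.H198.TriDia

variable {F : Type} [Field F] {G Ω ι : Type} [Group G] [MulAction G Ω] {N : Subgroup G}

/-- no cover by commuting elements of `N` of different prime orders -/
def NoN (Ω : Type) {G : Type} [Group G] [MulAction G Ω] (N : Subgroup G) : Prop :=
  ∀ (κ : Type) [Finite κ] (y : κ → G) (t : κ → ℕ), PF y t → Cov Ω y → (∀ i, y i ∈ N) → False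

/-- the environment of type iii -/
structure T3 (hG : Good (plusForm 4 F)) (N : Subgroup G) (κ : P8 F →* G) (s : F ≃+* F) (Ω : Type)
    [MulAction G Ω] (x₁ : G) (x : ι → G) (r : ι → ℕ) (g : ι → (V8 F ≃ₗ[F] V8 F)) : Prop where
  env : Env G Ω N
  rp : Rp (plusForm 4 F) N κ
  cube : ∀ a, s (s (s a)) = a
  ne : s ≠ RingEquiv.refl F
  tri : La κ x₁ (xt hG (fG s))
  prime : ∀ i, (r i).Prime
  inj : Function.Injective r
  three : ∀ i, r i ≠ 3
  mem : ∀ i, g i ∈ AutD (fG s)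
  lift : ∀ i, x i = κ (mkD (fG s) ⟨g i, mem i⟩)
  pow : ∀ i, g i ^ r i = 1
  ne1 : ∀ i, g i ≠ 1
  comm : ∀ i j, g i * g j = g j * g i
  cov : ∀ ω : Ω, x₁ • ω = ω ∨ ∃ i, x i • ω = ω

section cons

variable {hG : Good (plusForm 4 F)} {κ : P8 F →* G} {s : F ≃+* F} {x₁ : G} {x : ι → G} {r : ι → ℕ}
  {g : ι → (V8 F ≃ₗ[F] V8 F)}

theorem T3.x_eq (h : T3 hG N κ s Ω x₁ x r g) (i : ι) :
    x i = up κ ⟨g i, (h.mem i).1⟩ := h.lift i

theorem T3.x_mem (h : T3 hG N κ s Ω x₁ x r g) (i : ι) : x i ∈ N := by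
  have h1 : x i ∈ κ.range := by
    rw [h.lift]
    exact ⟨_, rfl⟩
  rw [h.rp.range] at h1
  exact h1

theorem T3.x_comm (h : T3 hG N κ s Ω x₁ x r g) (i j : ι) : x i * x j = x j * x i := by
  rw [h.lift, h.lift, ← map_mul, ← map_mul, ← map_mul, ← map_mul]
  congr 2
  exact Subtype.ext (h.comm i j)

theorem T3.x_pow (h : T3 hG N κ s Ω x₁ x r g) (i : ι) : x i ^ r i = 1 := by
  rw [h.lift, ← map_pow, ← map_pow]
  have : (⟨g i, h.mem i⟩ : ↥(AutD (fG s))) ^ r i = 1 := Subtype.ext (by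
    rw [Subgroup.coe_pow]; exact h.pow i)
  rw [this, map_one, map_one]

theorem T3.x_ne (h : T3 hG N κ s Ω x₁ x r g) (i : ι) : x i ≠ 1 := by
  intro h1
  rw [h.lift] at h1
  have h2 := (map_eq_one_iff κ h.rp.inj).1 h1
  have h3 := (map_eq_one_iff _ (mkD_injective hG (fG s))).1 h2
  exact h.ne1 i (congrArg Subtype.val h3)

theorem T3.pf (h : T3 hG N κ s Ω x₁ x r g) : PF x r :=
  ⟨h.prime, h.inj, h.x_pow, h.x_ne, h.x_comm⟩

/-- `κ (mk c)`, `c ∈ AutD`, commutes with `x₁` -/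
theorem T3.comm_of_mem (h : T3 hG N κ s Ω x₁ x r g) {c : V8 F ≃ₗ[F] V8 F} (hc : c ∈ AutD (fG s)) :
    x₁ * up κ ⟨c, hc.1⟩ = up κ ⟨c, hc.1⟩ * x₁ := by
  have h1 := h.tri (mkD (fG s) ⟨c, hc⟩)
  have h2 : mkD (fG s) ⟨c, hc⟩ ∈ Fx (xt hG (fG s)) := by
    rw [← mkD_range hG (tri_fG s)]
    exact ⟨_, rfl⟩
  have h3 : xt hG (fG s) (mkD (fG s) ⟨c, hc⟩) = mkD (fG s) ⟨c, hc⟩ := h2
  rw [h3] at h1
  exact mul_inv_eq_iff_eq_mul.1 h1

theorem T3.x1_comm (h : T3 hG N κ s Ω x₁ x r g) (i : ι) : x₁ * x i = x i * x₁ := by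
  rw [h.x_eq]
  exact h.comm_of_mem (h.mem i)

/-- conversely, an element of `E Q` whose class commutes with `x₁` is, up to sign, in `AutD` -/
theorem T3.mem_of_comm (h : T3 hG N κ s Ω x₁ x r g) (c : ↥(E (plusForm 4 F)))
    (hc : x₁ * up κ c = up κ c * x₁) :
    ∃ c' : ↥(E (plusForm 4 F)), (c' : P8 F) = (c : P8 F) ∧ (c' : V8 F ≃ₗ[F] V8 F) ∈ AutD (fG s) := by
  have h1 := h.tri (c : P8 F)
  have h2 : x₁ * κ (c : P8 F) * x₁⁻¹ = κ (c : P8 F) := by
    rw [mul_inv_eq_iff_eq_mul]; exact hc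
  rw [h2] at h1
  have h3 := h.rp.inj h1
  exact (mem_Fx_xt hG (tri_fG s)).1 (h3.symm : xt hG (fG s) (c : P8 F) = (c : P8 F))

theorem T3.x1_cube (h : T3 hG N κ s Ω x₁ x r g) : x₁ ^ 3 = 1 := by
  have h1 : La κ (x₁ ^ 3) (xt hG (fG s) ^ 3) := h.tri.pow 3
  have h3 : (fG s) ^ 3 = 1 := by
    apply Subtype.ext
    apply Equiv.ext
    intro v
    rw [pow_three]
    show (fG s).1 ((fG s).1 ((fG s).1 v)) = v
    funext i
    rw [fG_apply, fG_apply, fG_apply, h.cube]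
  rw [xt_pow_three hG (tri_fG s) h3] at h1
  exact h1.eq h.env h.rp La.one

end cons

end Cfsg.Agent.H864.RC
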