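import Cfsg.Agent.H520.RC.BoxG
import Cfsg.Agent.H253.RC.T3Dead
import Cfsg.Agent.H338.RC.DeadG1Fin
import Cfsg.Agent.H510.Tri3.Four
import Cfsg.Agent.H195.RC.TwK2
import Cfsg.Agent.H721.RC.Row8

/-!
# S3510, triality type iii: assembly (helper864)
-/

set_option autoImplicit false
open Cfsg

namespace Cfsg.Agent.H864.RC

open Module QuadraticMap MulAction
open Cfsg.Agent.LieClassical.OrthCore Cfsg.Agent.LieClassical.OrthTrans
open Cfsg.Agent.LieClassical.OrthSimple Cfsg.Agent.ClassicalGeometry.OrthSemi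
open Cfsg.Agent.ClassicalGeometry.OrthAut1 Cfsg.Agent.H106.RC Cfsg.Agent.H93.RC Cfsg.Agent.H566.RC
open Cfsg.Agent.LieClassical.QuadForms Cfsg.Agent.ClassicalGeometry.TrialityOct
open Cfsg.Agent.ClassicalGeometry.Triality Cfsg.Agent.ClassicalGeometry.TrialitySpaces
open Cfsg.Agent.H198.TriBase Cfsg.Agent.H198.TriAut Cfsg.Agent.H206.Balance Cfsg.Agent.H198.TriDia
open Cfsg.Agent.H198.TwComp Cfsg.Agent.H198

/-- a member of order `p` and another member (helper195) -/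
def MixedStmt : Prop :=
  ∀ {F : Type} [Field F] {G Ω ι : Type} [Group G] [MulAction G Ω] {N : Subgroup G} {hG : Good (plusForm 4 F)}
    {κ : P8 F →* G} {s : F ≃+* F} {x₁ : G} {x : ι → G} {r : ι → ℕ} {g : ι → (V8 F ≃ₗ[F] V8 F)}
    [Finite F] [Finite G] [Finite ι] [Nonempty Ω] {p : ℕ} [CharP F p] (_ : T3 hG N κ s Ω x₁ x r g)
    (_ : IH (Nat.card N)) (_ : NoN Ω N) (i₀ j₀ : ι) (_ : r i₀ = p) (_ : r j₀ ≠ p), False

variable {F : Type} [Field F] {G Ω ι : Type} [Group G] [MulAction G Ω] {N : Subgroup G} {hG : Good (plusForm 4 F)}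
  {κ : P8 F →* G} {s : F ≃+* F} {x₁ : G} {x : ι → G} {r : ι → ℕ} {g : ι → (V8 F ≃ₗ[F] V8 F)}

/-- the `p'`-case -/
theorem dead_pprime [Finite F] [Finite G] [Finite ι] [Nonempty Ω] {p : ℕ} [CharP F p]
    (h : T3 hG N κ s Ω x₁ x r g) (hIH : IH (Nat.card N)) (hN : NoN Ω N) (hrp : ∀ i, r i ≠ p) : False := by
  by_cases h0 : ∃ c ∈ E (plusForm 4 F), (∀ i, c * g i = g i * c) ∧ c ^ p = 1 ∧ c ≠ 1
  · obtain ⟨c, hcE, hcc, hcp, hc1⟩ := h0
    exact dead_G0 h hN hrp hcE hcp hc1 hcc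
  have hC : ∀ c ∈ E (plusForm 4 F), (∀ i, c * g i = g i * c) → c ^ p = 1 → c = 1 := by
    intro c hcE hcc hcp
    by_contra hc1
    exact h0 ⟨c, hcE, hcc, hcp, hc1⟩
  rcases H520.RC.box_G_rot hG (fun i => (h.mem i).1) h.prime h.inj hrp h.pow h.comm h.ne1 hC with
    ⟨L, L', hL⟩ | h3 | ⟨P, hP, hrot⟩
  · exact H338.RC.dead_G1 h hN hrp hL
  · exact dead_G2 h hN h3
  · exact H510.Tri3.dead_G3_rot h hIH hrp hP hrot

/-- type iii -/
theorem dead_iii_of (hmix : MixedStmt) [Finite F] [Finite G] [Finite ι] [Nonempty Ω]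
    (h : T3 hG N κ s Ω x₁ x r g) (hIH : IH (Nat.card N)) (hN : NoN Ω N) : False := by
  obtain ⟨p, hp⟩ := CharP.exists F
  by_cases h1 : ∃ i, r i = p
  · obtain ⟨i, hi⟩ := h1
    by_cases h2 : ∃ j, r j ≠ p
    · obtain ⟨j, hj⟩ := h2
      exact hmix h hIH hN i j hi hj
    · push Not at h2
      exact H195.RC.dead_k2 h hN i hi (fun j => h.inj ((h2 j).trans hi.symm))
  · push Not at h1
    exact dead_pprime h hIH hN h1

theorem typeIII_of (hmix : MixedStmt) : H721.RC.TypeIII := by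
  intro F _ G Ω ι _ _ N hG κ s x₁ x r g _ _ _ _ h hIH hN
  exact dead_iii_of hmix h hIH hN

end Cfsg.Agent.H864.RC
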